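import Mathlib
import Cfsg.Agent.Base
import Cfsg.Agent.Lib.AutCl.Galois
import Cfsg.Agent.Lib.FrobC.Huppert
import Cfsg.Agent.Lib.Elusive.Count

/-!
# Semilinear groups transitive on the planes of a finite field over its prime field
-/

set_option autoImplicit false

namespace H14.W

open Module H67

variable {F : Type*} [Field F]

/-- The plane spanned by `1` and `t` over the prime field. -/
def plHom (t : F) : (⊥ : Subfield F) × (⊥ : Subfield F) →+ F where
  toFun x := x.1 + x.2 * t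
  map_zero' := by simp
  map_add' x y := by simp; ring

/-- The plane spanned by `1` and `t` over the prime field. -/
def pl (t : F) : AddSubgroup F := (plHom t).range

theorem mem_pl {t x : F} : x ∈ pl t ↔ ∃ a ∈ (⊥ : Subfield F), ∃ b ∈ (⊥ : Subfield F),
    x = a + b * t :=
  ⟨fun ⟨y, hy⟩ => ⟨y.1, y.1.2, y.2, y.2.2, hy.symm⟩,
    fun ⟨a, ha, b, hb, e⟩ => ⟨(⟨a, ha⟩, ⟨b, hb⟩), e.symm⟩⟩

theorem one_mem_pl (t : F) : (1 : F) ∈ pl t := mem_pl.2 ⟨1, one_mem _, 0, zero_mem _, by simp⟩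

theorem self_mem_pl (t : F) : t ∈ pl t := mem_pl.2 ⟨0, zero_mem _, 1, one_mem _, by simp⟩

theorem card_pl (p : ℕ) [Fact p.Prime] [CharP F p] {t : F} (ht : t ∉ (⊥ : Subfield F)) :
    Nat.card (pl t) = p ^ 2 := by
  have h : Function.Injective (plHom t) := by
    rw [injective_iff_map_eq_zero]
    rintro ⟨a, b⟩ e
    change (a : F) + b * t = 0 at e
    have hb : (b : F) = 0 := by
      by_contra hb
      apply ht
      rw [show t = -a / b by field_simp; linear_combination e]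
      exact div_mem (neg_mem a.2) b.2
    rw [hb, zero_mul, add_zero] at e
    exact Prod.ext (Subtype.ext e) (Subtype.ext hb)
  rw [pl, ← Nat.card_congr (AddMonoidHom.ofInjective h).toEquiv, Nat.card_prod,
    Subfield.card_bot F p, sq]

/-- The semilinear maps with field automorphism in `Γ` are transitive on planes. -/
def PlTr (Γ : Subgroup (RingAut F)) : Prop :=
  ∀ t₀ t : F, t₀ ∉ (⊥ : Subfield F) → t ∉ (⊥ : Subfield F) →
    ∃ a : F, ∃ σ ∈ Γ, ∀ x ∈ pl t, ∃ y ∈ pl t₀, x = a * σ y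

theorem PlTr.ratio {Γ : Subgroup (RingAut F)} (h : PlTr Γ) {t₀ t : F} (h0 : t₀ ∉ (⊥ : Subfield F))
    (h1 : t ∉ (⊥ : Subfield F)) :
    ∃ σ ∈ Γ, ∃ v ∈ pl t₀, ∃ w ∈ pl t₀, v ≠ 0 ∧ w ≠ 0 ∧ t = σ (w / v) := by
  obtain ⟨a, σ, hσ, h2⟩ := h t₀ t h0 h1
  obtain ⟨v, hv, e1⟩ := h2 1 (one_mem_pl t)
  obtain ⟨w, hw, e2⟩ := h2 t (self_mem_pl t)
  have hv0 : σ v ≠ 0 := fun e => one_ne_zero (by rw [e1, e, mul_zero])
  refine ⟨σ, hσ, v, hv, w, hw, fun e => hv0 (by rw [e, map_zero]), fun e => h1 ?_, ?_⟩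
  · rw [e2, e, map_zero, mul_zero]; exact zero_mem _
  · rw [map_div₀, eq_div_iff hv0, e2]
    linear_combination (-σ w) * e1

theorem exists_notMem_bot [Finite F] {p : ℕ} [Fact p.Prime] [CharP F p] {K : Subfield F}
    (h : p < Nat.card K) : ∃ t ∈ K, t ∉ (⊥ : Subfield F) := by
  by_contra hc
  push Not at hc
  have := Nat.card_le_card_of_injective _ (Subfield.inclusion (S := K) (T := ⊥) hc).injective
  rw [Subfield.card_bot F p] at this
  omega

theorem PlTr.card_le [Finite F] {p : ℕ} [Fact p.Prime] [CharP F p] {Γ : Subgroup (RingAut F)}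
    (h : PlTr Γ) : Nat.card F ≤ p + Nat.card Γ * ((p ^ 2 - 1) * (p + 1)) := by
  classical
  by_contra hlt
  obtain ⟨t₀, -, ht₀⟩ := exists_notMem_bot (p := p) (K := (⊤ : Subfield F))
    (by rw [Nat.card_congr Subfield.topEquiv.toEquiv]; omega)
  let den : Option (⊥ : Subfield F) → F := fun c => c.elim 1 fun c => c + t₀
  let f : (⊥ : Subfield F) ⊕ Γ × {w : pl t₀ // w ≠ 0} × Option (⊥ : Subfield F) → F :=
    Sum.elim Subtype.val fun x => (x.1 : RingAut F) (x.2.1.1 / den x.2.2)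
  have hf : Function.Surjective f := by
    intro t
    by_cases ht : t ∈ (⊥ : Subfield F)
    · exact ⟨Sum.inl ⟨t, ht⟩, rfl⟩
    obtain ⟨σ, hσ, v, hv, w, hw, hv0, hw0, e⟩ := h.ratio ht₀ ht
    obtain ⟨c, hc, d, hd, rfl⟩ := mem_pl.1 hv
    obtain ⟨a, ha, b, hb, rfl⟩ := mem_pl.1 hw
    have key : ∀ k ∈ (⊥ : Subfield F), k ≠ 0 → ∀ o, c + d * t₀ = k * den o →
        ∃ x, f x = t := fun k hk hk0 o ho =>
      ⟨Sum.inr (⟨σ, hσ⟩, ⟨⟨(a + b * t₀) / k, mem_pl.2 ⟨a / k, div_mem ha hk, b / k, div_mem hb hk,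
        by ring⟩⟩, fun e' => div_ne_zero hw0 hk0 (congrArg Subtype.val e')⟩, o), by
        rw [e, ho]; simp [f, div_div]⟩
    by_cases hd0 : d = 0
    · subst hd0
      exact key c hc (by simpa using hv0) none (by simp [den])
    · exact key d hd hd0 (some ⟨c / d, div_mem hc hd⟩) (by simp [den]; field_simp)
  have h1 := Nat.card_le_card_of_surjective f hf
  have h2 : Nat.card {w : pl t₀ // w ≠ 0} = p ^ 2 - 1 := by
    rw [← card_pl p ht₀]
    letI := Fintype.ofFinite (pl t₀)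
    simp [Fintype.card_subtype_compl]
  rw [Nat.card_sum, Nat.card_prod, Nat.card_prod, h2, Finite.card_option,
    Subfield.card_bot F p] at h1
  omega

theorem pow_gt_aux {p n : ℕ} (hp : 2 ≤ p) (hn : 5 ≤ n) (h : 3 ≤ p ∨ 6 ≤ n) :
    p + n * ((p ^ 2 - 1) * (p + 1)) < p ^ n := by
  have h1 : (p ^ 2 - 1) * (p + 1) + (p + 1) = p ^ 2 * (p + 1) := by
    have : 1 ≤ p ^ 2 := Nat.one_le_pow _ _ (by omega)
    rw [← Nat.succ_mul, Nat.succ_eq_add_one, Nat.sub_add_cancel this]
  set A := (p ^ 2 - 1) * (p + 1)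
  have step : ∀ m, 1 ≤ m → p + m * A < p ^ m → p + (m + 1) * A < p ^ (m + 1) := by
    intro m hm h
    have : p ^ m * 2 ≤ p ^ (m + 1) := pow_succ p m ▸ Nat.mul_le_mul_left _ hp
    nlinarith
  have ind : ∀ m, 1 ≤ m → p + m * A < p ^ m → ∀ k, p + (m + k) * A < p ^ (m + k) := by
    intro m hm h k
    induction k with
    | zero => exact h
    | succ k ih => exact step (m + k) (by omega) ih
  rcases h with h | h
  · obtain ⟨k, rfl⟩ := Nat.exists_eq_add_of_le hn
    refine ind 5 (by omega) ?_ k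
    have h2 : p ^ 5 = p ^ 2 * (p * p * p) := by ring
    have h3 : 5 * (p + 1) ≤ p * p * p := by nlinarith
    have h4 := Nat.mul_le_mul_left (p ^ 2) h3
    nlinarith
  · obtain ⟨k, rfl⟩ := Nat.exists_eq_add_of_le h
    refine ind 6 (by omega) ?_ k
    rcases hp.eq_or_lt with rfl | hp3
    · norm_num at h1 ⊢
    · have h2 : p ^ 6 = p ^ 2 * (p * p * p * p) := by ring
      have h5 : 3 * 3 * 3 ≤ p * p * p := Nat.mul_le_mul (Nat.mul_le_mul hp3 hp3) hp3
      have h3 : 6 * (p + 1) ≤ p * p * p * p := by nlinarith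
      have h4 := Nat.mul_le_mul_left (p ^ 2) h3
      nlinarith

theorem PlTr.cases [Finite F] {p n : ℕ} [hp : Fact p.Prime] (hF : Nat.card F = p ^ n)
    {Γ : Subgroup (RingAut F)} (h : PlTr Γ) : n ≤ 3 ∨ (n = 5 ∧ p = 2 ∧ Γ = ⊤) := by
  haveI := charP_of_card hF
  have h1 := h.card_le (p := p)
  have h2 : Nat.card Γ ∣ n := card_ringAut hF ▸ Γ.card_subgroup_dvd_card
  by_contra hc
  have hn : 4 ≤ n := by omega
  rcases hn.eq_or_lt with rfl | hn
  · obtain ⟨φ, -, hφ, -⟩ := exists_frob hF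
    have h3 : Nat.card (fixF (φ ^ 2)) = p ^ 2 := by
      rw [card_fixF hF, orderOf_pow_of_dvd (by norm_num) (by rw [hφ]; norm_num), hφ]
    have h4 : p < p ^ 2 := by have := hp.out.one_lt; nlinarith
    obtain ⟨t₀, ht₀, ht₀'⟩ := exists_notMem_bot (p := p) (h3 ▸ h4)
    have h5 : ∀ x ∈ pl t₀, x ∈ fixF (φ ^ 2) := fun x hx => by
      obtain ⟨a, ha, b, hb, rfl⟩ := mem_pl.1 hx
      exact add_mem (bot_le (a := fixF (φ ^ 2)) ha) (mul_mem (bot_le (a := fixF (φ ^ 2)) hb) ht₀)
    have h6 : fixF (φ ^ 2) = ⊤ := by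
      rw [eq_top_iff]
      intro t _
      by_cases ht : t ∈ (⊥ : Subfield F)
      · exact bot_le (a := fixF (φ ^ 2)) ht
      obtain ⟨σ, -, v, hv, w, hw, -, -, rfl⟩ := h.ratio ht₀' ht
      rw [mem_fixF, ← RingAut.mul_apply, ringAut_comm, RingAut.mul_apply,
        mem_fixF.1 (div_mem (h5 w hw) (h5 v hv))]
    rw [h6, Nat.card_congr Subfield.topEquiv.toEquiv, hF] at h3
    exact absurd (Nat.pow_right_injective hp.out.two_le h3) (by norm_num)
  have h3 := Nat.mul_le_mul_right ((p ^ 2 - 1) * (p + 1)) (Nat.le_of_dvd (by omega) h2)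
  have h4 : ¬ (3 ≤ p ∨ 6 ≤ n) := fun h => by
    have := pow_gt_aux hp.out.two_le hn h
    omega
  have h5 := hp.out.two_le
  obtain rfl : p = 2 := by omega
  obtain rfl : n = 5 := by omega
  refine hc (Or.inr ⟨rfl, rfl, Subgroup.eq_top_of_card_eq _ ?_⟩)
  rw [card_ringAut hF]
  rcases (Nat.dvd_prime (by norm_num)).1 h2 with e | e
  · rw [hF, e] at h1; norm_num at h1
  · exact e

/-- A solvable linear group transitive on points and on lines is one-dimensional semilinear. -/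
theorem semilinear_of_trans {p : ℕ} [hp : Fact p.Prime] {V : Type*} [AddCommGroup V]
    [Module (ZMod p) V] [Finite V] [Nontrivial V] {G : Type*} [Group G] [Finite G]
    [Group.IsSolvable G] (ρ : G →* End (ZMod p) V) (h2 : finrank (ZMod p) V = 2 → p = 2)
    (T1 : ∀ v w : V, v ≠ 0 → w ≠ 0 → ∃ g, ∃ c : ZMod p, ρ g v = c • w)
    (T2 : ∀ A B : Submodule (ZMod p) V, finrank (ZMod p) A = 2 → finrank (ZMod p) B = 2 →
      ∃ g, B = A.map (ρ g)) :
    ∃ (F : Type) (_ : Field F) (_ : Fintype F) (e : V ≃+ F),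
      ∀ g : G, ∃ (a : F) (σ : F ≃+* F), ∀ v : V, e (ρ g v) = a * σ (e v) := by
  let sc : (ZMod p)ˣ →* (End (ZMod p) V)ˣ := Units.map (algebraMap (ZMod p) (End (ZMod p) V))
  let φ : G × (ZMod p)ˣ →* (End (ZMod p) V)ˣ := ρ.toHomUnits.noncommCoprod sc fun g c =>
    Units.ext (Algebra.commutes (c : ZMod p) (ρ g)).symm
  have hφ : ∀ g c v, (φ (g, c) : End (ZMod p) V) v = (c : ZMod p) • ρ g v := fun g c v => by
    change (ρ g * algebraMap (ZMod p) (End (ZMod p) V) c) v = _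
    simp [Module.algebraMap_end_apply]
  let ρ' : φ.range →* End (ZMod p) V := (Units.coeHom _).comp φ.range.subtype
  haveI : Group.IsSolvable φ.range := Group.isSolvable_of_surjective φ.rangeRestrict_surjective
  haveI : Finite φ.range := Finite.of_surjective _ φ.rangeRestrict_surjective
  have h : H82.TrRep ρ' := ⟨fun a b e => Subtype.ext (Units.ext e), fun v w hv hw => by
    obtain ⟨g, c, e⟩ := T1 v w hv hw
    have hc : c ≠ 0 := fun e' => H82.rep_ne_zero g hv (by rw [e, e', zero_smul])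
    refine ⟨⟨φ (g, (Units.mk0 c hc)⁻¹), _, rfl⟩, ?_⟩
    change (φ (g, _) : End (ZMod p) V) v = w
    rw [hφ, e, smul_smul]
    simp [hc]⟩
  have hΓ : H82.Gam ρ' := by
    by_contra hΓ
    rcases h.huppert hΓ with ⟨h3, h4⟩ | ⟨h3, rfl, -⟩
    · have := h2 h3
      omega
    have h5 := H99.nsub_mul (F := ZMod 3) (V := V) (m := 2) (by omega)
    rw [h3] at h5
    have h6 : H99.nsub (ZMod 3) V 2 = 130 := by
      simp [H99.dprod, Finset.prod_range_succ] at h5
      omega
    haveI := H99.finite_submodule (ZMod 3) V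
    obtain ⟨⟨A, hA⟩⟩ : Nonempty {W : Submodule (ZMod 3) V // finrank (ZMod 3) W = 2} :=
      (Nat.card_pos_iff.1 (show 0 < H99.nsub (ZMod 3) V 2 by omega)).1
    have h7 : 13 ∣ Nat.card φ.range := by
      open Pointwise in
      have h8 : MulAction.orbit φ.range A = 
          {W : Submodule (ZMod 3) V | finrank (ZMod 3) W = 2} := by
        ext W
        constructor
        · rintro ⟨g, rfl⟩
          change finrank (ZMod 3) (A.map (ρ' g)) = 2
          rw [← hA]
          exact (Submodule.equivMapOfInjective _ (fun a b e => by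
            simpa [H82.rep_inv_apply] using congrArg (ρ' g⁻¹) e) A).finrank_eq.symm
        · intro hW
          obtain ⟨g, rfl⟩ := T2 A W hA hW
          refine ⟨⟨φ (g, 1), _, rfl⟩, ?_⟩
          change A.map (φ (g, 1) : End (ZMod 3) V) = _
          congr 1
          ext v
          rw [hφ]; simp
      open Pointwise in
      have h9 := (MulAction.stabilizer φ.range A).index_dvd_card
      open Pointwise in
      rw [MulAction.index_stabilizer, h8, ← Nat.card_coe_set_eq] at h9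
      exact Dvd.dvd.trans (Dvd.intro 10 h6.symm) h9
    haveI : Fact (Nat.Prime 13) := ⟨by norm_num⟩
    by_cases hO : Cfsg.pCore 13 φ.range = ⊥
    · have := (h.big_prime (r := 13) (by norm_num) (by omega) hO h7).1
      omega
    · obtain ⟨k, hk, hk', -⟩ := h.exists_deg_prime (p := 13) (H1.isPGroup_pCore) hO
      rw [h3] at hk
      have := Nat.le_of_dvd (by norm_num) hk
      interval_cases k <;> simp_all
  obtain ⟨A, _, hA, hI⟩ := hΓ
  obtain ⟨F, _, _, e, he⟩ := h.semilinear hA.isMulCommutative hI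
  refine ⟨F, inferInstance, inferInstance, e, fun g => ?_⟩
  obtain ⟨a, σ, h3⟩ := he ⟨φ (g, 1), _, rfl⟩
  refine ⟨a, σ, fun v => ?_⟩
  rw [← h3]
  congr 1
  change _ = (φ (g, 1) : End (ZMod p) V) v
  rw [hφ]; simp

end H14.W
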