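import Mathlib
import Cfsg.Agent.Base
import Cfsg.Agent.Lib.WCor.Plane
import Cfsg.Agent.Lib.FGS.HHGroup

/-!
# Groups with a self-centralising normal elementary abelian Sylow subgroup whose subgroups of equal
order are conjugate
-/

set_option autoImplicit false

namespace H14.W

open Module H67 Subgroup Cfsg H46

section Perm

variable {K : Type*} [Field K]

/-- The field automorphisms occurring in a group of semi-affine permutations. -/
def galOf (Y : Subgroup (Equiv.Perm K)) : Subgroup (RingAut K) where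
  carrier := {σ | ∃ g ∈ Y, ∃ a b : K, ∀ x, g x = a * σ x + b}
  one_mem' := ⟨1, one_mem _, 1, 0, fun x => by simp⟩
  mul_mem' := by
    rintro σ τ ⟨g, hg, a, b, h1⟩ ⟨k, hk, c, d, h2⟩
    exact ⟨g * k, mul_mem hg hk, a * σ c, a * σ d + b, fun x => by
      rw [Equiv.Perm.mul_apply, h1, h2, map_add, map_mul, RingAut.mul_apply]; ring⟩
  inv_mem' := by
    rintro σ ⟨g, hg, a, b, h1⟩
    have ha : a ≠ 0 := fun e => one_ne_zero (g.injective (by rw [h1, h1, e]; ring : g 1 = g 0))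
    refine ⟨g⁻¹, inv_mem hg, σ⁻¹ a⁻¹, -σ⁻¹ (a⁻¹ * b), fun x => ?_⟩
    rw [Equiv.Perm.inv_eq_iff_eq, h1, ← map_mul, ← sub_eq_add_neg, ← map_sub, ← RingAut.mul_apply,
      mul_inv_cancel, RingAut.one_apply]
    field_simp
    ring

theorem mul_mem_of_prime [Finite K] {Y : Subgroup (Equiv.Perm K)}
    (hp : (Nat.card K - 1).Prime) (hlt : Nat.card (RingAut K) < Nat.card K - 1)
    (h : ∀ a : K, a ≠ 0 → ∃ g ∈ Y, ∃ σ : RingAut K, ∀ x, g x = a * σ x) (a : Kˣ) :
    MulAction.toPerm a ∈ Y := by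
  haveI : Fact (Nat.card Kˣ).Prime := ⟨by rwa [Nat.card_units]⟩
  rcases (Y.comap (MulAction.toPermHom Kˣ K)).eq_bot_or_eq_top_of_prime_card with h1 | h1
  · choose g hg σ hσ using h
    refine absurd (Nat.card_le_card_of_injective (fun a : Kˣ => σ a a.ne_zero) fun a b e => ?_)
      (by rw [Nat.card_units]; omega)
    have h2 : a * b⁻¹ ∈ Y.comap (MulAction.toPermHom Kˣ K) := by
      have : MulAction.toPermHom Kˣ K (a * b⁻¹) = g a a.ne_zero * (g b b.ne_zero)⁻¹ := by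
        rw [eq_mul_inv_iff_mul_eq]
        ext x
        simp only at e
        rw [Equiv.Perm.mul_apply, hσ, hσ, e]
        simp [Units.smul_def, mul_assoc]
      rw [mem_comap, this]
      exact mul_mem (hg _ _) (inv_mem (hg _ _))
    rwa [h1, mem_bot, mul_inv_eq_one] at h2
  · exact (h1 ▸ mem_top a : a ∈ Y.comap (MulAction.toPermHom Kˣ K))

theorem mem_of_gal {Y : Subgroup (Equiv.Perm K)} (ht : ∀ c : K, ∃ g ∈ Y, ∀ x, g x = x + c)
    (hm : ∀ a : Kˣ, MulAction.toPerm a ∈ Y) {σ : RingAut K} (hσ : σ ∈ galOf Y) {k : Equiv.Perm K}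
    {c : Kˣ} {d : K} (hk : ∀ x, k x = c * σ x + d) : k ∈ Y := by
  obtain ⟨g, hg, a, b, h1⟩ := hσ
  have ha : a ≠ 0 := fun e => one_ne_zero (g.injective (by rw [h1, h1, e]; ring : g 1 = g 0))
  obtain ⟨t, ht1, ht2⟩ := ht (d - c / a * b)
  have : k = t * MulAction.toPerm (c * (Units.mk0 a ha)⁻¹) * g := by
    ext x
    rw [Equiv.Perm.mul_apply, Equiv.Perm.mul_apply, ht2, hk, h1]
    simp [Units.smul_def]
    field_simp
    ring
  rw [this]
  exact mul_mem (mul_mem ht1 (hm _)) hg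

theorem eq_semi {Y : Subgroup (Equiv.Perm K)} (hY : Y ≤ semiaffineGroup K)
    (ht : ∀ c : K, ∃ g ∈ Y, ∀ x, g x = x + c) (hm : ∀ a : Kˣ, MulAction.toPerm a ∈ Y)
    (h : galOf Y = ⊤) : Y = semiaffineGroup K :=
  le_antisymm hY fun _ ⟨_, _, φ, hk⟩ => mem_of_gal ht hm (σ := φ) (h ▸ mem_top _) hk

theorem eq_aff {Y : Subgroup (Equiv.Perm K)} (hY : Y ≤ semiaffineGroup K)
    (ht : ∀ c : K, ∃ g ∈ Y, ∀ x, g x = x + c) (hm : ∀ a : Kˣ, MulAction.toPerm a ∈ Y)
    (h : galOf Y = ⊥) : Y = affineGroup K := by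
  refine le_antisymm (fun k hk => ?_) fun _ ⟨_, _, hk⟩ => mem_of_gal ht hm (one_mem _) hk
  obtain ⟨a, b, φ, h1⟩ := hY hk
  have : (φ : RingAut K) ∈ galOf Y := ⟨k, hk, a, b, h1⟩
  rw [h, mem_bot] at this
  exact ⟨a, b, fun x => by rw [h1, this]; rfl⟩

end Perm

theorem zmod_two_eq_one : ∀ c : ZMod 2, c ≠ 0 → c = 1 := by decide

variable {X : Type*} [Group X] [Finite X]

theorem affine_core [Group.IsSolvable X] {p n : ℕ} [hp : Fact p.Prime] {P : Subgroup X} [P.Normal]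
    (hV : IsMulCommutative P ∧ ∀ x : P, x ^ p = 1) (hP : Nat.card P = p ^ n) (hn : n ≠ 0)
    (h2 : n = 2 → p = 2) (hi : ¬ p ∣ P.index) (hC : centralizer (P : Set X) ≤ P)
    (hc : ∀ A B : Subgroup X, A ≤ P → B ≤ P → Nat.card A = Nat.card B →
      ∃ g : X, B = A.map (MulAut.conj g).toMonoidHom) :
    ∃ f : X →* Equiv.Perm (GaloisField p n), Function.Injective f ∧
      f.range ≤ semiaffineGroup _ ∧ (∀ c, ∃ g ∈ f.range, ∀ x, g x = x + c) ∧
      (p = 2 → ∀ a, a ≠ 0 → ∃ g ∈ f.range, ∃ σ : RingAut _, ∀ x, g x = a * σ x) ∧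
      PlTr (galOf f.range) := by
  have hr := EA.finrank_eq_of_card hV hP
  haveI : Nontrivial (EA p P hV) := Module.nontrivial_of_finrank_pos (R := ZMod p) (by omega)
  let ρ := H76.conjRep P hV
  have T0 : ∀ A B : Submodule (ZMod p) (EA p P hV), Nat.card A = Nat.card B →
      ∃ g, B = A.map (ρ g) := by
    intro A B h
    obtain ⟨A, rfl⟩ := (EA.subgroupEquiv hV).surjective A
    obtain ⟨B, rfl⟩ := (EA.subgroupEquiv hV).surjective B
    rw [EA.card_subgroupEquiv, EA.card_subgroupEquiv] at h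
    obtain ⟨g, hg⟩ := hc (A.map P.subtype) (B.map P.subtype) (map_subtype_le _) (map_subtype_le _)
      (by rw [card_map_of_injective P.subtype_injective, card_map_of_injective P.subtype_injective, h])
    have hB : B = A.map (MulAut.conjNormal g : P ≃* P).toMonoidHom := by
      apply map_injective P.subtype_injective
      rw [hg, Subgroup.map_map, Subgroup.map_map]
      congr 1
    refine ⟨g, ?_⟩
    ext v
    rw [hB]
    exact Iff.rfl
  have hcf : ∀ A : Submodule (ZMod p) (EA p P hV), Nat.card A = p ^ finrank (ZMod p) A := fun A => by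
    rw [Module.natCard_eq_pow_finrank (K := ZMod p), Nat.card_zmod]
  have T1 : ∀ v w : EA p P hV, v ≠ 0 → w ≠ 0 → ∃ g, ∃ c : ZMod p, ρ g v = c • w := by
    intro v w hv hw
    obtain ⟨g, hg⟩ := T0 (Submodule.span _ {v}) (Submodule.span _ {w}) (by
      rw [hcf, hcf, finrank_span_singleton hv, finrank_span_singleton hw])
    obtain ⟨c, hc⟩ := Submodule.mem_span_singleton.1
      (hg ▸ Submodule.mem_map_of_mem (Submodule.mem_span_singleton_self v) :
        ρ g v ∈ Submodule.span _ {w})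
    exact ⟨g, c, hc.symm⟩
  obtain ⟨F, _, _, e₀, he₀⟩ := semilinear_of_trans ρ (hr ▸ h2) T1 fun A B hA hB => T0 A B (by
    rw [hcf, hcf, hA, hB])
  letI := Fintype.ofFinite (GaloisField p n)
  let i : F ≃+* GaloisField p n := FiniteField.ringEquivOfCardEq (by
    rw [← Nat.card_eq_fintype_card, ← Nat.card_eq_fintype_card, GaloisField.card p n hn, ← hP,
      ← Nat.card_congr e₀.toEquiv, EA.card_eq])
  let e := e₀.trans i.toAddEquiv
  have he : ∀ g, ∃ (a : GaloisField p n) (σ : RingAut (GaloisField p n)), a ≠ 0 ∧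
      ∀ v, e (ρ g v) = a * σ (e v) := fun g => by
    obtain ⟨a, σ, h⟩ := he₀ g
    have h1 : ∀ v, e (ρ g v) = i a * ((i.symm.trans σ).trans i) (e v) := fun v => by
      change i (e₀ _) = i a * i (σ (i.symm (i (e₀ v))))
      rw [h, map_mul, RingEquiv.symm_apply_apply]
    refine ⟨i a, _, fun h0 => ?_, h1⟩
    obtain ⟨v, hv⟩ := exists_ne (0 : EA p P hV)
    exact H82.rep_ne_zero (ρ := ρ) g hv (e.injective (by rw [h1, h0, zero_mul, map_zero]))
  obtain ⟨H, hH⟩ := Subgroup.exists_right_complement'_of_coprime (N := P)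
    (hP ▸ Nat.Coprime.pow_left n ((Nat.Prime.coprime_iff_not_dvd hp.out).2 hi))
  have hdec : ∀ g : X, ∃ u : P, ∃ h ∈ H, g = u * h := fun g => by
    obtain ⟨⟨u, h⟩, e, -⟩ := hH.existsUnique g
    exact ⟨u, h, h.2, e.symm⟩
  have hdis : ∀ x ∈ P, x ∈ H → x = 1 := fun x a b => disjoint_def.1 hH.disjoint a b
  let β : P ≃ X ⧸ H := Equiv.ofBijective (fun u => ((u : X) : X ⧸ H)) ⟨fun u v h =>
    Subtype.ext (inv_mul_eq_one.1 (hdis _ (mul_mem (inv_mem u.2) v.2) (QuotientGroup.eq.1 h))),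
    fun y => by
      obtain ⟨g, rfl⟩ := QuotientGroup.mk_surjective y
      obtain ⟨u, h, hh, rfl⟩ := hdec g
      exact ⟨u, (QuotientGroup.mk_mul_of_mem _ hh).symm⟩⟩
  let ε : P ≃ GaloisField p n := (EA.of hV).trans e.toEquiv
  let f : X →* Equiv.Perm (GaloisField p n) :=
    (β.symm.trans ε).permCongrHom.toMonoidHom.comp (MulAction.toPermHom X (X ⧸ H))
  have hf : ∀ (u : P) (h : X), h ∈ H → ∀ y, f (u * h) y = e (ρ h (e.symm y)) + ε u := by
    intro u h hh y
    obtain ⟨v, rfl⟩ := ε.surjective y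
    change ε (β.symm (((u : X) * h) • β (ε.symm (ε v)))) = e (ρ h (e.symm (e (EA.of hV v)))) + _
    rw [Equiv.symm_apply_apply, AddEquiv.symm_apply_apply, H76.conjRep_of, add_comm]
    change _ = e (EA.of hV u) + e _
    rw [← map_add, ← EA.of_mul]
    refine congrArg ε (β.symm_apply_eq.2 ?_)
    change (((u : X) * h * v : X) : X ⧸ H) = ((u * (h * v * h⁻¹) : X) : X ⧸ H)
    rw [← mul_assoc, QuotientGroup.mk_mul_of_mem _ (inv_mem hh), mul_assoc]
  have hρ : ∀ (u : P) (h : X), ρ (u * h) = ρ h := fun u h => by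
    rw [map_mul, (H76.conjRep_eq_one_iff P hV).2 fun x hx =>
      congrArg Subtype.val (hV.1.is_comm.comm ⟨x, hx⟩ u), one_mul]
  have hlin : ∀ g, ∃ k ∈ f.range, ∀ y, k y = e (ρ g (e.symm y)) := fun g => by
    obtain ⟨u, h, hh, rfl⟩ := hdec g
    refine ⟨f h, ⟨h, rfl⟩, fun y => ?_⟩
    have := hf 1 h hh y
    rw [OneMemClass.coe_one, one_mul] at this
    rw [this, hρ]
    change _ + e 0 = _
    rw [map_zero, add_zero]
  refine ⟨f, ?_, ?_, fun c => ⟨f (ε.symm c), ⟨_, rfl⟩, fun x => ?_⟩, ?_, ?_⟩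
  · rw [injective_iff_map_eq_one]
    intro g hg
    obtain ⟨u, h, hh, rfl⟩ := hdec g
    have h1 := hf u h hh
    simp only [hg, Equiv.Perm.one_apply] at h1
    have h3 : ε u = 0 := by simpa using (h1 0).symm
    have h4 : u = 1 := (EA.of_eq_zero hV).1 (e.injective (h3.trans (map_zero e).symm))
    have h5 : ρ h = 1 := by
      ext v
      apply e.injective
      simpa [h3] using (h1 (e v)).symm
    rw [h4, hdis h (hC ((H76.conjRep_eq_one_iff P hV).1 h5)) hh]
    simp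
  · rintro _ ⟨g, rfl⟩
    obtain ⟨u, h, hh, rfl⟩ := hdec g
    obtain ⟨a, σ, ha, h1⟩ := he h
    exact ⟨Units.mk0 a ha, ε u, σ, fun x => by rw [hf u h hh, h1]; simp⟩
  · have := hf (ε.symm c) 1 (one_mem _) x
    rw [mul_one] at this
    simpa using this
  · rintro rfl a ha
    obtain ⟨g, c, h1⟩ := T1 (e.symm 1) (e.symm a) (by simp) (by simpa using ha)
    have hc : c = 1 := by
      have : c ≠ 0 := fun e' => H82.rep_ne_zero (ρ := ρ) g (v := e.symm 1) (by simp)
        (by rw [h1, e', zero_smul])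
      exact zmod_two_eq_one c this
    obtain ⟨k, hk, h3⟩ := hlin g
    obtain ⟨b, σ, -, h4⟩ := he g
    have h5 := h4 (e.symm 1)
    rw [h1, hc] at h5
    simp only [one_smul, AddEquiv.apply_symm_apply, map_one, mul_one] at h5
    exact ⟨k, hk, σ, fun x => by rw [h3, h4, h5, AddEquiv.apply_symm_apply]⟩
  · intro t₀ t h0 h1
    have hs : ∀ s : GaloisField p n, Nat.card (AddSubgroup.toZModSubmodule p
        ((pl s).comap e.toAddMonoidHom)) = Nat.card (pl s) := fun s =>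
      Nat.card_congr (e.toEquiv.subtypeEquiv fun _ => Iff.rfl)
    obtain ⟨g, hg⟩ := T0 _ _ ((hs t₀).trans ((card_pl p h0).trans
      ((hs t).trans (card_pl p h1)).symm))
    obtain ⟨k, hk, h3⟩ := hlin g
    obtain ⟨b, σ, -, h4⟩ := he g
    refine ⟨b, σ, ⟨k, hk, b, 0, fun x => by rw [h3, h4]; simp⟩, fun x hx => ?_⟩
    obtain ⟨v, hv, h5⟩ := hg.le (show e.symm x ∈ AddSubgroup.toZModSubmodule p
      ((pl t).comap e.toAddMonoidHom) by simpa using hx)
    exact ⟨e v, hv, by rw [← h4, h5, AddEquiv.apply_symm_apply]⟩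

/-- The case `p = 2`. -/
theorem affine_two [Group.IsSolvable X] {n : ℕ} {P : Subgroup X} [P.Normal]
    (hV : IsMulCommutative P ∧ ∀ x : P, x ^ 2 = 1) (hP : Nat.card P = 2 ^ n) (hn : 3 ≤ n)
    (hi : ¬ 2 ∣ P.index) (hC : centralizer (P : Set X) ≤ P)
    (hc : ∀ A B : Subgroup X, A ≤ P → B ≤ P → Nat.card A = Nat.card B →
      ∃ g : X, B = A.map (MulAut.conj g).toMonoidHom) :
    (n = 3 ∧ (Nonempty (X ≃* semiaffineGroup (GaloisField 2 3)) ∨
        Nonempty (X ≃* affineGroup (GaloisField 2 3)))) ∨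
      (n = 5 ∧ Nonempty (X ≃* semiaffineGroup (GaloisField 2 5))) := by
  obtain ⟨f, h1, h2, h3, h4, h5⟩ := affine_core hV hP (by omega) (fun _ => rfl) hi hC hc
  have hK := GaloisField.card 2 n (by omega)
  have hm : n = 3 ∨ n = 5 → ∀ a : (GaloisField 2 n)ˣ, MulAction.toPerm a ∈ f.range :=
    fun h => mul_mem_of_prime (by rw [hK]; rcases h with rfl | rfl <;> norm_num)
      (by rw [card_ringAut hK, hK]; rcases h with rfl | rfl <;> norm_num) (h4 rfl)
  have e := MonoidHom.ofInjective h1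
  rcases h5.cases hK with h6 | ⟨rfl, -, h6⟩
  · obtain rfl : n = 3 := by omega
    refine Or.inl ⟨rfl, ?_⟩
    haveI : Fact (Nat.card (RingAut (GaloisField 2 3))).Prime := ⟨by rw [card_ringAut hK]; norm_num⟩
    rcases (galOf f.range).eq_bot_or_eq_top_of_prime_card with h | h
    · exact Or.inr ⟨e.trans (MulEquiv.subgroupCongr (eq_aff h2 h3 (hm (by simp)) h))⟩
    · exact Or.inl ⟨e.trans (MulEquiv.subgroupCongr (eq_semi h2 h3 (hm (by simp)) h))⟩
  · exact Or.inr ⟨rfl, ⟨e.trans (MulEquiv.subgroupCongr (eq_semi h2 h3 (hm (by simp)) h6))⟩⟩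

end H14.W
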